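import Cfsg.Agent.H632.LB.Def

/-!
# The multiplicities are rational functions; the thin value (helper594, box (R) of helper632, for S4879)

* `FJ_rat` : `FJ` is a rational function of `x ≥ 1`;
* `FJ_const` : if infinitely many of its values are in a finite set, it is constant;
* `FJ_one` : its value at `x = 1`.
-/

set_option autoImplicit false
set_option linter.unusedSectionVars false

namespace Cfsg.Agent.H594.LB.Rat

open Cfsg.Agent.H967.Sph Cfsg.Agent.H996.Eight.Cert Cfsg.Agent.H64.Dl.Sph Cfsg.Agent.H632.LB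
open Polynomial (X C)
open scoped Polynomial

/-! ### Rational functions of `x ≥ 1` -/

/-- `f` is a rational function of `x ≥ 1` without poles -/
def Rt (f : ℕ → ℚ) : Prop :=
  ∃ P Q : ℚ[X], ∀ x : ℕ, 1 ≤ x → Q.eval (x : ℚ) ≠ 0 ∧ f x = P.eval (x : ℚ) / Q.eval (x : ℚ)

namespace Rt

variable {f g : ℕ → ℚ}

theorem congr (hf : Rt f) (h : ∀ x, 1 ≤ x → g x = f x) : Rt g := by
  obtain ⟨P, Q, h1⟩ := hf
  exact ⟨P, Q, fun x hx => ⟨(h1 x hx).1, (h x hx).trans (h1 x hx).2⟩⟩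

theorem poly (P : ℚ[X]) : Rt fun x => P.eval (x : ℚ) :=
  ⟨P, 1, fun x _ => by simp⟩

theorem const (c : ℚ) : Rt fun _ => c := (poly (C c)).congr fun x _ => by simp

theorem id : Rt fun x => (x : ℚ) := (poly X).congr fun x _ => by simp

theorem pow (k : ℕ) : Rt fun x => (x : ℚ) ^ k := (poly (X ^ k)).congr fun x _ => by simp

theorem add (hf : Rt f) (hg : Rt g) : Rt fun x => f x + g x := by
  obtain ⟨P, Q, h1⟩ := hf
  obtain ⟨P', Q', h2⟩ := hg
  refine ⟨P * Q' + Q * P', Q * Q', fun x hx => ?_⟩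
  have h3 := (h1 x hx).1
  have h4 := (h2 x hx).1
  refine ⟨by rw [Polynomial.eval_mul]; exact mul_ne_zero h3 h4, ?_⟩
  show f x + g x = _
  rw [(h1 x hx).2, (h2 x hx).2, Polynomial.eval_add, Polynomial.eval_mul, Polynomial.eval_mul, Polynomial.eval_mul,
    div_add_div _ _ h3 h4]

theorem mul (hf : Rt f) (hg : Rt g) : Rt fun x => f x * g x := by
  obtain ⟨P, Q, h1⟩ := hf
  obtain ⟨P', Q', h2⟩ := hg
  refine ⟨P * P', Q * Q', fun x hx => ?_⟩
  have h3 := (h1 x hx).1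
  have h4 := (h2 x hx).1
  refine ⟨by rw [Polynomial.eval_mul]; exact mul_ne_zero h3 h4, ?_⟩
  show f x * g x = _
  rw [(h1 x hx).2, (h2 x hx).2, Polynomial.eval_mul, Polynomial.eval_mul, div_mul_div_comm]

theorem neg (hf : Rt f) : Rt fun x => -f x := ((const (-1)).mul hf).congr fun x _ => by ring

theorem sub (hf : Rt f) (hg : Rt g) : Rt fun x => f x - g x := (hf.add hg.neg).congr fun x _ => by ring

theorem inv (hf : Rt f) (h0 : ∀ x, 1 ≤ x → f x ≠ 0) : Rt fun x => (f x)⁻¹ := by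
  obtain ⟨P, Q, h1⟩ := hf
  refine ⟨Q, P, fun x hx => ⟨fun h2 => h0 x hx ?_, ?_⟩⟩
  · rw [(h1 x hx).2, h2, zero_div]
  · show (f x)⁻¹ = _
    rw [(h1 x hx).2, inv_div]

theorem div (hf : Rt f) (hg : Rt g) (h0 : ∀ x, 1 ≤ x → g x ≠ 0) : Rt fun x => f x / g x :=
  (hf.mul (hg.inv h0)).congr fun x _ => by rw [div_eq_mul_inv]

theorem sum {ι : Type*} (s : Finset ι) {f : ι → ℕ → ℚ} (h : ∀ i ∈ s, Rt (f i)) : Rt fun x => ∑ i ∈ s, f i x := by
  classical
  induction s using Finset.induction_on with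
  | empty => exact (const 0).congr fun x _ => by simp
  | insert a s ha ih =>
    refine ((h a (Finset.mem_insert_self a s)).add (ih fun i hi => h i (Finset.mem_insert_of_mem hi))).congr fun x _ => ?_
    rw [Finset.sum_insert ha]

theorem ite {p : Prop} [Decidable p] (hf : Rt f) (hg : Rt g) : Rt fun x => if p then f x else g x := by
  by_cases h : p
  · simpa [h] using hf
  · simpa [h] using hg

theorem ev (l : List ℤ) : Rt fun x => ev (x : ℚ) l := by
  induction l with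
  | nil => exact (const 0).congr fun x _ => rfl
  | cons a l ih => exact ((const (a : ℚ)).add (id.mul ih)).congr fun x _ => rfl

end Rt

/-! ### `FJ` is rational -/

variable {I : Type*} [Fintype I] [DecidableEq I] {A : I → I → ℤ} {j : I} {N m : ℕ} (t : Tab A j N m)

theorem rt_psiR {a : ℕ → Fin m → ℚ} (ha : ∀ c, Rt fun x => a x c) (w : List I) :
    ∀ u, Rt fun x => psiR t x (a x) w u := by
  induction w with
  | nil => exact fun u => ha _
  | cons i w ih =>
    intro u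
    have h1 : ∀ v, Rt fun x => t.tau (fun _ => x) i (psiR t x (a x) w) v := by
      intro v
      unfold Tab.tau
      exact Rt.ite ((ih _).add ((Rt.id.sub (Rt.const 1)).mul (ih v))) (Rt.id.mul (ih _))
    show Rt fun x => stp t x i (sR t w) (psiR t x (a x) w) u
    unfold stp
    refine Rt.ite ((h1 u).sub ((Rt.id.sub (Rt.const 1)).mul (ih u))) ((Rt.id.inv fun x hx => ?_).mul (h1 u))
    exact Nat.cast_ne_zero.2 (by omega)

theorem Rel.refl (J : Set I) (s : Fin N) : Rel t J s s := ⟨[], fun _ h => absurd h List.not_mem_nil, rfl⟩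

open Classical in
theorem sum_pos_of {x : ℕ} (hx : 1 ≤ x) (wl : Fin N → ℕ) (J : Set I) (s : Fin N) :
    0 < ∑ u, if Rel t J s u then (x : ℚ) ^ wl u else 0 := by
  have hx' : (0 : ℚ) < (x : ℚ) := Nat.cast_pos.2 hx
  refine Finset.sum_pos' (fun u _ => ?_) ⟨s, Finset.mem_univ s, ?_⟩
  · split_ifs
    · exact (pow_pos hx' _).le
    · exact le_refl _
  · rw [if_pos (Rel.refl t J s)]
    exact pow_pos hx' _

theorem rt_EE {a : ℕ → Fin m → ℚ} (ha : ∀ c, Rt fun x => a x c) (wl : Fin N → ℕ) (J : Set I) (s : Fin N) :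
    Rt fun x => EE t x wl (a x) J s := by
  classical
  unfold EE
  refine Rt.div (Rt.sum _ fun u _ => ?_) (Rt.sum _ fun u _ => ?_) fun x hx => (sum_pos_of t hx wl J s).ne'
  · exact Rt.ite ((Rt.pow _).mul (rt_psiR t ha _ u)) (Rt.const 0)
  · exact Rt.ite (Rt.pow _) (Rt.const 0)

theorem den_pos {x : ℕ} (hx : 1 ≤ x) (wl : Fin N → ℕ) {a : Fin m → ℚ} (h1 : a (t.cls t.o) = 1) :
    0 < ∑ s, (x : ℚ) ^ wl s * a (t.cls s) ^ 2 := by
  have hx' : (0 : ℚ) < (x : ℚ) := Nat.cast_pos.2 hx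
  refine Finset.sum_pos' (fun u _ => mul_nonneg (pow_pos hx' _).le (sq_nonneg _)) ⟨t.o, Finset.mem_univ _, ?_⟩
  rw [h1]
  have := pow_pos hx' (wl t.o)
  simpa using this

theorem rt_FF {a : ℕ → Fin m → ℚ} (ha : ∀ c, Rt fun x => a x c) (h1 : ∀ x, 1 ≤ x → a x (t.cls t.o) = 1)
    (wl : Fin N → ℕ) (J : Set I) : Rt fun x => FF t x wl (a x) J := by
  unfold FF
  refine Rt.div (Rt.sum _ fun u _ => (Rt.pow _).mul (rt_EE t ha wl J u)) (Rt.sum _ fun u _ => (Rt.pow _).mul ?_)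
    fun x hx => (den_pos t hx wl (h1 x hx)).ne'
  exact ((ha _).mul (ha _)).congr fun x _ => sq _

/-- **(R1)** -/
theorem FJ_rat {nu : Fin m → List ℤ} (hnu : ∀ x : ℕ, 1 ≤ x → ev (x : ℚ) (nu (t.cls t.o)) ≠ 0) (wl : Fin N → ℕ)
    (J : Set I) : ∃ P Q : ℚ[X], ∀ x : ℕ, 1 ≤ x → Q.eval (x : ℚ) ≠ 0 ∧ FJ t wl nu J x = P.eval (x : ℚ) / Q.eval (x : ℚ) :=
  rt_FF t (a := fun x c => ev (x : ℚ) (nu c) / ev (x : ℚ) (nu (t.cls t.o)))
    (fun _ => Rt.div (Rt.ev _) (Rt.ev _) hnu) (fun x hx => div_self (hnu x hx)) wl J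

/-- **(R2)** -/
theorem FJ_const {nu : Fin m → List ℤ} (hnu : ∀ x : ℕ, 1 ≤ x → ev (x : ℚ) (nu (t.cls t.o)) ≠ 0) (wl : Fin N → ℕ)
    (J : Set I) {S : Set ℂ} (hS : S.Finite) {V : Set ℕ} (hV : V.Infinite)
    (h : ∀ x ∈ V, 1 ≤ x ∧ ((FJ t wl nu J x : ℚ) : ℂ) ∈ S) (x : ℕ) (hx : 1 ≤ x) :
    FJ t wl nu J x = FJ t wl nu J 1 := by
  obtain ⟨P, Q, hPQ⟩ := FJ_rat t hnu wl J
  have hV' : Infinite V := hV.to_subtype
  have hS' : Finite S := hS.to_subtype
  obtain ⟨s, hs⟩ := Finite.exists_infinite_fiber (fun x : V => (⟨((FJ t wl nu J x.1 : ℚ) : ℂ), (h x.1 x.2).2⟩ : S))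
  obtain ⟨x₀, hx₀⟩ := (Set.infinite_coe_iff.1 hs).nonempty
  have hc : ∀ x ∈ (fun x : V => (⟨((FJ t wl nu J x.1 : ℚ) : ℂ), (h x.1 x.2).2⟩ : S)) ⁻¹' {s},
      FJ t wl nu J x.1 = FJ t wl nu J x₀.1 := by
    intro x hx
    have h1 : (⟨((FJ t wl nu J x.1 : ℚ) : ℂ), (h x.1 x.2).2⟩ : S) = ⟨((FJ t wl nu J x₀.1 : ℚ) : ℂ), (h x₀.1 x₀.2).2⟩ :=
      (show _ = s from hx).trans (show _ = s from hx₀).symm
    have h2 : ((FJ t wl nu J x.1 : ℚ) : ℂ) = ((FJ t wl nu J x₀.1 : ℚ) : ℂ) := congrArg Subtype.val h1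
    exact_mod_cast h2
  have h0 : P - C (FJ t wl nu J x₀.1) * Q = 0 := by
    refine Polynomial.eq_zero_of_infinite_isRoot _ ?_
    refine Set.Infinite.mono (s := (fun x : V => ((x.1 : ℕ) : ℚ)) '' ((fun x : V =>
      (⟨((FJ t wl nu J x.1 : ℚ) : ℂ), (h x.1 x.2).2⟩ : S)) ⁻¹' {s})) ?_ ((Set.infinite_coe_iff.1 hs).image ?_)
    · rintro _ ⟨y, hy, rfl⟩
      have h1 := hPQ y.1 (h y.1 y.2).1
      have h2 := h1.2
      rw [hc y hy, eq_div_iff h1.1] at h2
      show Polynomial.eval ((y.1 : ℕ) : ℚ) (P - C (FJ t wl nu J x₀.1) * Q) = 0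
      rw [Polynomial.eval_sub, Polynomial.eval_mul, Polynomial.eval_C, h2, sub_self]
    · intro y _ z _ hyz
      have h1 : ((y.1 : ℕ) : ℚ) = ((z.1 : ℕ) : ℚ) := hyz
      exact Subtype.ext (by exact_mod_cast h1)
  have key : ∀ y : ℕ, 1 ≤ y → FJ t wl nu J y = FJ t wl nu J x₀.1 := by
    intro y hy
    have h1 := congrArg (Polynomial.eval (y : ℚ)) h0
    rw [Polynomial.eval_sub, Polynomial.eval_mul, Polynomial.eval_C, Polynomial.eval_zero, sub_eq_zero] at h1
    rw [(hPQ y hy).2, h1, mul_div_assoc, div_self (hPQ y hy).1, mul_one]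
  rw [key x hx, key 1 le_rfl]

/-! ### The thin value -/

section One

variable {t}

theorem Rel.trans {J : Set I} {s u v : Fin N} (h1 : Rel t J s u) (h2 : Rel t J u v) : Rel t J s v := by
  obtain ⟨w, hw, rfl⟩ := h1
  obtain ⟨w', hw', rfl⟩ := h2
  refine ⟨w ++ w', fun i hi => ?_, by rw [List.foldl_append]⟩
  rcases List.mem_append.1 hi with h | h
  · exact hw i h
  · exact hw' i h

theorem Rel.step {J : Set I} {i : I} (hi : i ∈ J) (s : Fin N) : Rel t J s (t.st i s) :=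
  ⟨[i], fun k hk => by rw [List.mem_singleton.1 hk]; exact hi, rfl⟩

/-- induction on `Rel` -/
theorem Rel.induct {J : Set I} {s : Fin N} {P : Fin N → Prop} (h0 : P s) (h1 : ∀ i ∈ J, ∀ u, P u → P (t.st i u))
    {u : Fin N} (h : Rel t J s u) : P u := by
  obtain ⟨w, hw, rfl⟩ := h
  induction w generalizing s with
  | nil => exact h0
  | cons i w ih =>
    exact ih (h1 i (hw i List.mem_cons_self) s h0) fun k hk => hw k (List.mem_cons_of_mem _ hk)

variable (hst : ∀ i s, t.st i (t.st i s) = s)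

include hst

theorem Rel.symm {J : Set I} {s u : Fin N} (h : Rel t J s u) : Rel t J u s := by
  refine Rel.induct (P := fun u => Rel t J u s) (Rel.refl t J s) (fun i hi u hu => ?_) h
  have h1 : Rel t J (t.st i u) (t.st i (t.st i u)) := Rel.step hi _
  rw [hst] at h1
  exact Rel.trans h1 hu

variable {inv : Fin N → Fin N → Fin m} (h0 : ∀ u, inv t.o u = t.cls u)
  (h1 : ∀ i s u, inv (t.st i s) (t.st i u) = inv s u)

include h0 h1

theorem psiR_one (a : Fin m → ℚ) (w : List I) (u : Fin N) : psiR t 1 a w u = a (inv (sR t w) u) := by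
  induction w generalizing u with
  | nil =>
    show a (t.cls u) = a (inv t.o u)
    rw [h0]
  | cons i w ih =>
    have h2 : psiR t 1 a (i :: w) u = psiR t 1 a w (t.st i u) := by
      show stp t 1 i (sR t w) (psiR t 1 a w) u = _
      unfold stp Tab.tau
      push_cast
      split_ifs <;> ring
    rw [h2, ih, sR, ← h1 i (sR t w) (t.st i u)]
    rw [hst]

theorem psi_one (a : Fin m → ℚ) (s u : Fin N) : psi t 1 a s u = a (inv s u) := by
  rw [psi, psiR_one hst h0 h1, sR_path]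

omit h0 h1 in
theorem rel_st_iff {J : Set I} {i : I} (hi : i ∈ J) (s u : Fin N) : Rel t J (t.st i s) (t.st i u) ↔ Rel t J s u := by
  constructor
  · intro h
    exact Rel.trans (Rel.trans (Rel.step hi s) h) (Rel.symm hst (Rel.step hi u))
  · intro h
    exact Rel.trans (Rel.trans (Rel.symm hst (Rel.step hi s)) h) (Rel.step hi u)

omit h0 h1 in
/-- the bijection `st i` -/
theorem sum_st {β : Type*} [AddCommMonoid β] (i : I) (f : Fin N → β) : ∑ u, f (t.st i u) = ∑ u, f u :=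
  Equiv.sum_comp (⟨t.st i, t.st i, hst i, hst i⟩ : Fin N ≃ Fin N) f

open Classical in
/-- **(R3)** -/
theorem FJ_one {nu : Fin m → List ℤ} (hnu : ev 1 (nu (t.cls t.o)) ≠ 0) (wl : Fin N → ℕ) {J : Set I} {rep : Fin N → Fin N}
    (h2 : ∀ i ∈ J, ∀ u, rep (t.st i u) = rep u) (h3 : ∀ u, Rel t J u (rep u)) :
    FJ t wl nu J 1 * (∑ s, (ev 1 (nu (t.cls s)) / ev 1 (nu (t.cls t.o))) ^ 2) =
      ∑ u, ev 1 (nu (inv (rep u) u)) / ev 1 (nu (t.cls t.o)) := by
  obtain ⟨a, ha⟩ : ∃ a : Fin m → ℚ, a = fun c => ev 1 (nu c) / ev 1 (nu (t.cls t.o)) := ⟨_, rfl⟩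
  have e1 : ∀ c, ev 1 (nu c) / ev 1 (nu (t.cls t.o)) = a c := fun c => by rw [ha]
  simp only [e1]
  have ho : a (t.cls t.o) = 1 := by rw [ha]; exact div_self hnu
  -- the numbers
  obtain ⟨n, hn⟩ : ∃ n : Fin N → ℚ, ∀ s, n s = ∑ u, if Rel t J s u then (1 : ℚ) else 0 := ⟨_, fun _ => rfl⟩
  have hn0 : ∀ s, n s ≠ 0 := by
    intro s
    have h4 := sum_pos_of t (x := 1) le_rfl wl J s
    simp only [Nat.cast_one, one_pow] at h4
    rw [hn]
    exact h4.ne'
  obtain ⟨E, hE⟩ : ∃ E : Fin N → ℚ, ∀ s, E s = (∑ u, if Rel t J s u then a (inv s u) else 0) / n s := ⟨_, fun _ => rfl⟩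
  have hEE : ∀ s, EE t 1 wl a J s = E s := by
    intro s
    rw [EE, hE, hn]
    simp only [Nat.cast_one, one_pow, one_mul, psi_one hst h0 h1]
  have hFJ : FJ t wl nu J 1 = (∑ s, E s) / ∑ s, a (t.cls s) ^ 2 := by
    have h4 : FJ t wl nu J 1 = FF t 1 wl a J := by
      rw [FJ, ha]
      simp only [Nat.cast_one]
    rw [h4, FF]
    simp only [Nat.cast_one, one_pow, one_mul, hEE]
  have hden : (∑ s, a (t.cls s) ^ 2) ≠ 0 := by
    have h4 := den_pos t (x := 1) le_rfl wl ho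
    simp only [Nat.cast_one, one_pow, one_mul] at h4
    exact h4.ne'
  rw [hFJ, div_mul_cancel₀ _ hden]
  -- invariance
  have hrel : ∀ s u, Rel t J s u ↔ rep s = rep u := by
    intro s u
    constructor
    · intro h
      exact Rel.induct (P := fun u => rep s = rep u) rfl (fun i hi u hu => by rw [h2 i hi]; exact hu) h
    · intro h
      have h4 := h3 s
      rw [h] at h4
      exact Rel.trans h4 (Rel.symm hst (h3 u))
  have hnst : ∀ i ∈ J, ∀ s, n (t.st i s) = n s := by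
    intro i hi s
    rw [hn, hn, ← sum_st hst i]
    refine Finset.sum_congr rfl fun u _ => ?_
    by_cases h4 : Rel t J s u
    · rw [if_pos h4, if_pos ((rel_st_iff hst hi s u).2 h4)]
    · rw [if_neg h4, if_neg (fun h5 => h4 ((rel_st_iff hst hi s u).1 h5))]
  have hEst : ∀ i ∈ J, ∀ s, E (t.st i s) = E s := by
    intro i hi s
    rw [hE, hE, hnst i hi, ← sum_st hst i]
    congr 1
    refine Finset.sum_congr rfl fun u _ => ?_
    by_cases h4 : Rel t J s u
    · rw [if_pos h4, if_pos ((rel_st_iff hst hi s u).2 h4), h1]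
    · rw [if_neg h4, if_neg (fun h5 => h4 ((rel_st_iff hst hi s u).1 h5))]
  have hErep : ∀ s, E s = E (rep s) := by
    intro s
    exact (Rel.induct (P := fun u => E u = E s) rfl (fun i hi u hu => by rw [hEst i hi]; exact hu) (h3 s)).symm
  have hnrep : ∀ s, n s = n (rep s) := by
    intro s
    exact (Rel.induct (P := fun u => n u = n s) rfl (fun i hi u hu => by rw [hnst i hi]; exact hu) (h3 s)).symm
  calc ∑ s, E s = ∑ s, ∑ u, if rep s = rep u then a (inv (rep s) u) / n (rep s) else 0 := by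
        refine Finset.sum_congr rfl fun s _ => ?_
        rw [hErep, hE, Finset.sum_div]
        refine Finset.sum_congr rfl fun u _ => ?_
        have h4 : rep (rep s) = rep s := ((hrel s (rep s)).1 (h3 s)).symm
        by_cases h5 : rep s = rep u
        · rw [if_pos h5, if_pos ((hrel _ _).2 (h4.trans h5))]
        · rw [if_neg h5, if_neg (fun h6 => h5 (h4.symm.trans ((hrel _ _).1 h6))), zero_div]
    _ = ∑ u, ∑ s, if rep s = rep u then a (inv (rep s) u) / n (rep s) else 0 := Finset.sum_comm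
    _ = ∑ u, a (inv (rep u) u) := by
        refine Finset.sum_congr rfl fun u _ => ?_
        have h4 : ∀ s, (if rep s = rep u then a (inv (rep s) u) / n (rep s) else 0) =
            (a (inv (rep u) u) / n u) * if Rel t J u s then (1 : ℚ) else 0 := by
          intro s
          by_cases h5 : rep s = rep u
          · rw [if_pos h5, if_pos ((hrel _ _).2 h5.symm), h5, ← hnrep, mul_one]
          · rw [if_neg h5, if_neg (fun h6 => h5 ((hrel _ _).1 h6).symm), mul_zero]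
        rw [Finset.sum_congr rfl fun s _ => h4 s, ← Finset.mul_sum, ← hn, div_mul_cancel₀ _ (hn0 u)]

end One

end Cfsg.Agent.H594.LB.Rat
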